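import Mathlib
import Cfsg.Agent.Fusion.Basic

/-!
`π`-homogeneous groups with a dominating `π`-subgroup `H` (every `π`-subgroup is conjugate into `H`):
`H` controls the fusion of its `p`-subgroups, and conjugate elements of `H` are conjugate in `H`.
-/

set_option autoImplicit false

universe u

namespace Cfsg.Agent.PiHom

open Cfsg.Agent.Fusion

variable {G : Type u} [Group G]

/-- every prime divisor of the order lies in `π` -/
def IsPi (π : Set ℕ) (K : Subgroup G) : Prop :=
  ∀ p : ℕ, p.Prime → p ∣ Nat.card K → p ∈ π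

/-- every `π`-subgroup is conjugate into the `π`-subgroup `H` -/
def Dom (π : Set ℕ) (H : Subgroup G) : Prop :=
  IsPi π H ∧ ∀ S : Subgroup G, IsPi π S → ∃ g : G, cj g S ≤ H

/-- `π'`-elements normalizing a `p`-subgroup, `p ∈ π`, centralize it -/
def Hom (π : Set ℕ) (G : Type u) [Group G] : Prop :=
  ∀ p : ℕ, p.Prime → p ∈ π → ∀ T : Subgroup G, IsPGroup p T →
    ∀ g ∈ Subgroup.normalizer (T : Set G), (∀ q : ℕ, q.Prime → q ∣ orderOf g → q ∉ π) →
      g ∈ Subgroup.centralizer (T : Set G)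

theorem isPi_of_isPGroup [Finite G] {π : Set ℕ} {p : ℕ} (hp : p.Prime) (hpπ : p ∈ π)
    {T : Subgroup G} (hT : IsPGroup p T) : IsPi π T := by
  intro q hq hd
  haveI := Fact.mk hp
  obtain ⟨k, hk⟩ := hT.exists_card_eq
  rw [hk] at hd
  rw [(Nat.prime_dvd_prime_iff_eq hq hp).mp (hq.dvd_of_dvd_pow hd)]
  exact hpπ

theorem isPi_sup {π : Set ℕ} {S T : Subgroup G} (hS : IsPi π S) (hT : IsPi π T)
    (h : S ≤ Subgroup.normalizer (T : Set G)) : IsPi π (S ⊔ T) := by
  intro p hp hd
  have e1 : Nat.card T * T.relIndex (S ⊔ T) = Nat.card ↥(S ⊔ T) := by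
    rw [← Subgroup.relIndex_bot_left, ← Subgroup.relIndex_bot_left,
      Subgroup.relIndex_mul_relIndex _ _ _ bot_le le_sup_right]
  have e2 : T.relIndex (S ⊔ T) ∣ Nat.card S := by
    refine dvd_trans (dvd_of_eq ?_) (Subgroup.relIndex_dvd_card T S)
    haveI := Subgroup.normal_subgroupOf_of_le_normalizer h
    haveI := Subgroup.normal_subgroupOf_sup_of_le_normalizer h
    exact (Nat.card_congr (QuotientGroup.quotientInfEquivProdNormalizerQuotient S T h).toEquiv).symm
  rcases hp.dvd_mul.mp (e1 ▸ hd) with h1 | h1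
  · exact hT p hp h1
  · exact hS p hp (h1.trans e2)

theorem Hom.subgroup {π : Set ℕ} (h : Hom π G) (M : Subgroup G) : Hom π M := by
  intro p hp hpπ T hT g hg hgπ
  have h1 := h p hp hpπ (T.map M.subtype) (hT.map _) g
    (Subgroup.le_normalizer_map M.subtype ⟨g, hg, rfl⟩) (fun q hq hd => hgπ q hq (by
      rwa [Subgroup.orderOf_coe] at hd))
  rw [Subgroup.mem_centralizer_iff] at h1 ⊢
  exact fun t ht => Subtype.ext (h1 t ⟨t, ht, rfl⟩)

variable [Finite G]

/-- a `π`-supplement of a normal subgroup containing all `π'`-elements -/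
theorem exists_pi_supplement {π : Set ℕ} (C : Subgroup G) [C.Normal]
    (hC : ∀ g : G, (∀ q : ℕ, q.Prime → q ∣ orderOf g → q ∉ π) → g ∈ C) :
    ∃ S : Subgroup G, IsPi π S ∧ S ⊔ C = ⊤ := by
  classical
  obtain ⟨S, hS⟩ := exists_minimal_of_wellFoundedLT (fun S : Subgroup G => S ⊔ C = ⊤) ⟨⊤, top_sup_eq C⟩
  refine ⟨S, ?_, hS.prop⟩
  intro q hq hd
  by_contra hqπ
  haveI := Fact.mk hq
  let C' : Subgroup S := C.subgroupOf S
  have hkey : ∀ L : Subgroup S, L ⊔ C' = ⊤ → L = ⊤ := by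
    intro L hL
    have h1 : L.map S.subtype ⊔ C = ⊤ := by
      refine eq_top_iff.mpr (hS.prop ▸ sup_le ?_ le_sup_right)
      calc S = (⊤ : Subgroup S).map S.subtype := by
              rw [← MonoidHom.range_eq_map, Subgroup.range_subtype]
        _ = L.map S.subtype ⊔ C'.map S.subtype := by rw [← hL, Subgroup.map_sup]
        _ ≤ L.map S.subtype ⊔ C := sup_le_sup_left (Subgroup.map_comap_le _ _) _
    have h2 := hS.le_of_le h1 (Subgroup.map_subtype_le L)
    refine eq_top_iff.mpr fun s _ => ?_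
    obtain ⟨l, hl, hls⟩ := h2 s.2
    exact Subtype.ext hls ▸ hl
  let Q : Sylow q S := default
  have hQC : (Q : Subgroup S) ≤ C' := by
    intro x hx
    refine Subgroup.mem_subgroupOf.mpr (hC _ fun r hr hrd => ?_)
    obtain ⟨k, hk⟩ := (IsPGroup.iff_orderOf.mp Q.isPGroup') ⟨x, hx⟩
    rw [Subgroup.orderOf_mk] at hk
    rw [Subgroup.orderOf_coe, hk] at hrd
    rwa [(Nat.prime_dvd_prime_iff_eq hr hq).mp (hr.dvd_of_dvd_pow hrd)]
  have hN : (Q : Subgroup S).Normal := Subgroup.normalizer_eq_top_iff.mp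
    (hkey _ (Sylow.normalizer_sup_eq_top' Q hQC))
  obtain ⟨L, hL⟩ := Subgroup.exists_right_complement'_of_coprime (N := (Q : Subgroup S))
    Q.card_coprime_index
  have hLt : L = ⊤ := hkey L (eq_top_iff.mpr (le_trans hL.sup_eq_top.ge
    (sup_le (le_sup_of_le_right hQC) le_sup_left)))
  have : Nat.card (Q : Subgroup S) = 1 := by
    subst hLt
    have := hL.disjoint
    rw [disjoint_top] at this
    rw [this, Subgroup.card_bot]
  exact hq.ne_one (Nat.dvd_one.mp (this ▸ Q.dvd_card_of_dvd_card hd))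

variable {π : Set ℕ} {H : Subgroup G}

/-- conjugation by `g` acts on `T` as an element of `H` does -/
def Fus (H T : Subgroup G) (g : G) : Prop :=
  ∃ h ∈ H, ∃ c ∈ Subgroup.centralizer (T : Set G), g = h * c

omit [Finite G] in
theorem cj_of_centralizer {T : Subgroup G} {c : G} (hc : c ∈ Subgroup.centralizer (T : Set G)) :
    cj c T = T :=
  cj_eq_of_mem (Subgroup.centralizer_le_normalizer _ hc)

omit [Finite G] in
theorem Fus.cj_eq {T : Subgroup G} {g : G} (h : Fus H T g) : ∃ k ∈ H, cj g T = cj k T := by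
  obtain ⟨k, hk, c, hc, rfl⟩ := h
  exact ⟨k, hk, by rw [← cj_cj, cj_of_centralizer hc]⟩

omit [Finite G] in
theorem conj_mem_centralizer {T : Subgroup G} {g c : G}
    (hc : c ∈ Subgroup.centralizer (cj g T : Set G)) :
    g⁻¹ * c * g ∈ Subgroup.centralizer (T : Set G) := by
  rw [Subgroup.mem_centralizer_iff] at hc ⊢
  intro t ht
  have h1 : g * t * g⁻¹ * c = c * (g * t * g⁻¹) := hc _ (conj_mem_cj.mpr ht)
  calc t * (g⁻¹ * c * g) = g⁻¹ * (g * t * g⁻¹ * c) * g := by group
    _ = g⁻¹ * (c * (g * t * g⁻¹)) * g := by rw [h1]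
    _ = g⁻¹ * c * g * t := by group

omit [Finite G] in
theorem Fus.comp {T : Subgroup G} {g g' : G} (h : Fus H T g) (h' : Fus H (cj g T) g') :
    Fus H T (g' * g) := by
  obtain ⟨k, hk, c, hc, rfl⟩ := h
  obtain ⟨k', hk', c', hc', rfl⟩ := h'
  rw [← cj_cj, cj_of_centralizer hc] at hc'
  exact ⟨k' * k, mul_mem hk' hk, (k⁻¹ * c' * k) * c,
    mul_mem (conj_mem_centralizer hc') hc, by group⟩

omit [Finite G] in
theorem Fus.symm {T : Subgroup G} {g : G} (h : Fus H T g) : Fus H (cj g T) g⁻¹ := by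
  obtain ⟨k, hk, c, hc, rfl⟩ := h
  refine ⟨k⁻¹, inv_mem hk, k * c⁻¹ * k⁻¹, ?_, by group⟩
  rw [← cj_cj, cj_of_centralizer hc]
  have := conj_mem_centralizer (g := k⁻¹) (T := cj k T) (c := c⁻¹) (by
    rw [cj_inv_cj]; exact inv_mem hc)
  simpa using this

omit [Finite G] in
theorem Fus.mono {T R : Subgroup G} {g : G} (h : Fus H R g) (hTR : T ≤ R) : Fus H T g := by
  obtain ⟨k, hk, c, hc, rfl⟩ := h
  exact ⟨k, hk, c, Subgroup.centralizer_le hTR hc, rfl⟩

omit [Finite G] in
theorem centralizer_normal_in_normalizer (U : Subgroup G) {n c : G}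
    (hn : n ∈ Subgroup.normalizer (U : Set G)) (hc : c ∈ Subgroup.centralizer (U : Set G)) :
    n * c * n⁻¹ ∈ Subgroup.centralizer (U : Set G) := by
  have := conj_mem_centralizer (g := n⁻¹) (T := U) (c := c) (by rw [cj_eq_of_mem (inv_mem hn)]; exact hc)
  simpa using this

omit [Finite G] in
/-- if a `π`-subgroup `S` covering `N(U)/C(U)` is moved into `H` by `b ∈ N(U)`, then `N(U)` fuses as `H` -/
theorem fus_of_supplement {U S : Subgroup G} {b : G}
    (hS : ∀ n ∈ Subgroup.normalizer (U : Set G),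
      ∃ s ∈ S, ∃ c ∈ Subgroup.centralizer (U : Set G), n = s * c)
    (hb : b ∈ Subgroup.normalizer (U : Set G)) (hbS : cj b S ≤ H) {n : G}
    (hn : n ∈ Subgroup.normalizer (U : Set G)) : Fus H U n := by
  obtain ⟨s, hs, c, hc, e⟩ := hS (b⁻¹ * n * b) (mul_mem (mul_mem (inv_mem hb) hn) hb)
  refine ⟨b * s * b⁻¹, hbS (conj_mem_cj.mpr hs), b * c * b⁻¹,
    centralizer_normal_in_normalizer U hb hc, ?_⟩
  calc n = b * (b⁻¹ * n * b) * b⁻¹ := by group
    _ = b * (s * c) * b⁻¹ := by rw [e]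
    _ = b * s * b⁻¹ * (b * c * b⁻¹) := by group

/-- a `π`-subgroup of `N'` covering `N'` modulo `C(U)` -/
theorem exists_cover (hhom : Hom π G) {p : ℕ} (hp : p.Prime) (hpπ : p ∈ π) {U : Subgroup G}
    (hU : IsPGroup p U) (N' : Subgroup G) (hN' : N' ≤ Subgroup.normalizer (U : Set G)) :
    ∃ S : Subgroup G, S ≤ N' ∧ IsPi π S ∧
      ∀ n ∈ N', ∃ s ∈ S, ∃ c ∈ Subgroup.centralizer (U : Set G), n = s * c := by
  set C := (Subgroup.centralizer (U : Set G)).subgroupOf N' with hCdef
  haveI : C.Normal := ⟨fun c hc n => by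
    rw [hCdef, Subgroup.mem_subgroupOf] at hc ⊢
    exact centralizer_normal_in_normalizer U (hN' n.2) hc⟩
  obtain ⟨S, hS, hsup⟩ := exists_pi_supplement (π := π) C fun g hg => Subgroup.mem_subgroupOf.mpr
    (hhom p hp hpπ U hU g (hN' g.2) fun q hq hd => hg q hq (by rwa [Subgroup.orderOf_coe] at hd))
  refine ⟨S.map N'.subtype, Subgroup.map_subtype_le S, fun q hq hd => hS q hq ?_, fun n hn => ?_⟩
  · rwa [Subgroup.card_map_of_injective N'.subtype_injective] at hd
  · obtain ⟨s, hs, c, hc, e⟩ := Subgroup.mem_sup_of_normal_right.mp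
      (hsup ▸ Subgroup.mem_top (⟨n, hn⟩ : N') : (⟨n, hn⟩ : N') ∈ S ⊔ C)
    exact ⟨s, ⟨s, hs, rfl⟩, c, hc, (congrArg Subtype.val e).symm⟩

/-- Elements of `N(U)` fuse as `H` if some Sylow subgroup of `N(U)` lies in `H` and `H` controls
fusion of it. -/
theorem fus_normalizer (hH : Dom π H) (hhom : Hom π G) {p : ℕ} (hp : p.Prime) (hpπ : p ∈ π)
    {U R : Subgroup G} (hU : IsPGroup p U) (hR : IsPGroup p R) (hUR : U ≤ R) (hRH : R ≤ H)
    (hRN : R ≤ Subgroup.normalizer (U : Set G))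
    (hRi : ¬ p ∣ R.relIndex (Subgroup.normalizer (U : Set G)))
    (ih : ∀ a : G, cj a R ≤ H → Fus H R a) {n : G}
    (hn : n ∈ Subgroup.normalizer (U : Set G)) : Fus H U n := by
  haveI := Fact.mk hp
  set N := Subgroup.normalizer (U : Set G) with hN
  set C := Subgroup.centralizer (U : Set G) with hC
  have hCN : C ≤ N := Subgroup.centralizer_le_normalizer _
  set RC := R ⊓ C with hRCdef
  -- `RC` is Sylow in `C`
  have hRCi : ¬ p ∣ RC.relIndex C := by
    intro h
    apply hRi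
    have hdvd : C.relIndex R ∣ C.relIndex N := by
      have : (C.subgroupOf N).Normal := ⟨fun c hc m => by
        rw [Subgroup.mem_subgroupOf] at hc ⊢
        exact centralizer_normal_in_normalizer U m.2 hc⟩
      rw [← Subgroup.relIndex_subgroupOf (H := C) hRN]
      exact Subgroup.relIndex_dvd_index_of_normal _ _
    obtain ⟨m, hm⟩ := hdvd
    have h1 := Subgroup.relIndex_mul_relIndex RC R N inf_le_left hRN
    have h2 := Subgroup.relIndex_mul_relIndex RC C N inf_le_right hCN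
    have h3 : RC.relIndex R = C.relIndex R := Subgroup.inf_relIndex_left R C
    rw [← h1, hm, h3, mul_comm (RC.relIndex C), mul_assoc] at h2
    have h4 := mul_left_cancel₀ (Subgroup.index_ne_zero_of_finite) h2
    rw [← h4]
    exact dvd_mul_of_dvd_right h _
  have hRCp : IsPGroup p RC := hR.to_le inf_le_left
  set N' := N ⊓ Subgroup.normalizer (RC : Set G) with hN'
  have hRN' : R ≤ N' := by
    refine le_inf hRN fun r hr => ?_
    rw [← cj_eq_iff_mem_normalizer]
    refine Subgroup.eq_of_le_of_card_ge ?_ (card_cj r RC).ge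
    intro x hx
    rw [mem_cj] at hx
    refine ⟨?_, ?_⟩
    · have := mul_mem (mul_mem hr hx.1) (inv_mem hr)
      simpa [mul_assoc] using this
    · have := centralizer_normal_in_normalizer U (hRN hr) hx.2
      simpa [mul_assoc] using this
  obtain ⟨S, hSN', hSπ, hScov⟩ := exists_cover hhom hp hpπ hU N' inf_le_left
  -- add `RC`
  set S₁ := S ⊔ RC with hS₁
  have hRCN' : RC ≤ N' := inf_le_left.trans hRN'
  have hS₁N' : S₁ ≤ N' := sup_le hSN' hRCN'
  have hS₁π : IsPi π S₁ :=
    isPi_sup hSπ (isPi_of_isPGroup hp hpπ hRCp) (hSN'.trans inf_le_right)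
  -- `S₁` has index prime to `p` in `N'`
  have hS₁i : ¬ p ∣ S₁.relIndex N' := by
    intro h
    apply hRCi
    have hcard : S₁.relIndex N' = S₁.relIndex (C ⊓ N') := by
      refine (Nat.card_eq_of_bijective (fun x : (↥(C ⊓ N') ⧸ S₁.subgroupOf (C ⊓ N')) =>
          Quotient.liftOn' x
            (fun c => ((⟨(c : G), c.2.2⟩ : N') : N' ⧸ S₁.subgroupOf N')) ?_) ⟨?_, ?_⟩).symm
      · intro a b hab
        rw [QuotientGroup.leftRel_apply, Subgroup.mem_subgroupOf] at hab
        exact QuotientGroup.eq.mpr (Subgroup.mem_subgroupOf.mpr hab)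
      · intro x y
        induction x using QuotientGroup.induction_on with
        | H a =>
          induction y using QuotientGroup.induction_on with
          | H b =>
            intro h
            exact QuotientGroup.eq.mpr (Subgroup.mem_subgroupOf.mpr
              (Subgroup.mem_subgroupOf.mp (QuotientGroup.eq.mp h) :))
      · intro y
        induction y using QuotientGroup.induction_on with
        | H m =>
          obtain ⟨s, hs, c, hc, e⟩ := hScov m m.2
          have hsN : s ∈ N' := hSN' hs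
          have hcN : c ∈ N' := by
            rw [show c = s⁻¹ * (m : G) by rw [e]; group]
            exact mul_mem (inv_mem hsN) m.2
          have hmem : s * c * s⁻¹ ∈ C ⊓ N' :=
            Subgroup.mem_inf.mpr ⟨centralizer_normal_in_normalizer U hsN.1 hc,
              mul_mem (mul_mem hsN hcN) (inv_mem hsN)⟩
          refine ⟨((⟨s * c * s⁻¹, hmem⟩ : ↥(C ⊓ N')) : _ ⧸ _), ?_⟩
          refine QuotientGroup.eq.mpr (Subgroup.mem_subgroupOf.mpr ?_)
          show (s * c * s⁻¹)⁻¹ * (m : G) ∈ S₁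
          rw [e, show (s * c * s⁻¹)⁻¹ * (s * c) = s by group]
          exact Subgroup.mem_sup_left hs
    rw [hcard] at h
    have h1 : S₁.relIndex (C ⊓ N') ∣ RC.relIndex (C ⊓ N') :=
      Subgroup.relIndex_dvd_of_le_left _ le_sup_right
    refine (h.trans h1).trans ?_
    exact ⟨_, (Subgroup.relIndex_mul_relIndex RC (C ⊓ N') C (le_inf inf_le_right hRCN')
      inf_le_left).symm⟩
  -- a conjugate of a Sylow subgroup of `S₁` is `R`
  obtain ⟨P, hP⟩ : ∃ P : Subgroup G, P ≤ S₁ ∧ IsPGroup p P ∧ ¬ p ∣ P.relIndex N' := by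
    let P₀ : Sylow p S₁ := default
    refine ⟨(P₀ : Subgroup S₁).map S₁.subtype, Subgroup.map_subtype_le _, P₀.2.map _, fun h => ?_⟩
    rw [← Subgroup.relIndex_mul_relIndex _ S₁ N' (Subgroup.map_subtype_le _) hS₁N'] at h
    rcases hp.dvd_mul.mp h with h1 | h1
    · rw [Subgroup.relIndex, Subgroup.subgroupOf,
        Subgroup.comap_map_eq_self_of_injective S₁.subtype_injective] at h1
      exact P₀.not_dvd_index h1
    · exact hS₁i h1
  obtain ⟨hPS, hPp, hPi⟩ := hP
  have hRi' : ¬ p ∣ R.relIndex N' := fun h => hRi (h.trans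
    ⟨_, (Subgroup.relIndex_mul_relIndex R N' N hRN' inf_le_left).symm⟩)
  obtain ⟨y, hy, hyP⟩ := exists_conj_of_relIndex hPp hR (hPS.trans hS₁N') hRN' hPi hRi'
  set S₂ := cj y S₁ with hS₂
  have hRS₂ : R ≤ S₂ := hyP ▸ cj_mono y hPS
  have hS₂π : IsPi π S₂ := fun q hq hd => hS₁π q hq (by rwa [hS₂, card_cj] at hd)
  have hcov : ∀ m ∈ N, ∃ s ∈ S₂, ∃ c ∈ C, m = s * c := by
    intro m hm
    -- move `m` into `N'` by an element of `C`
    have hmn : cj m RC ≤ C := by
      rintro x hx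
      rw [mem_cj] at hx
      have := centralizer_normal_in_normalizer U hm hx.2
      simpa [mul_assoc] using this
    have hmi : ¬ p ∣ (cj m RC).relIndex C := by
      have hmC : cj m C = C := by
        refine Subgroup.eq_of_le_of_card_ge ?_ (card_cj m C).ge
        intro x hx
        rw [mem_cj] at hx
        have := centralizer_normal_in_normalizer U hm hx
        simpa [mul_assoc] using this
      rw [← hmC]
      rwa [Subgroup.relIndex_map_map_of_injective _ _ (MulEquiv.injective _)]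
    obtain ⟨c, hc, hcm⟩ := exists_conj_of_relIndex (isPGroup_cj hRCp m) hRCp hmn inf_le_right hmi hRCi
    have hcmN : c * m ∈ N' := by
      refine ⟨mul_mem (hCN hc) hm, ?_⟩
      show c * m ∈ Subgroup.normalizer (RC : Set G)
      rw [← cj_eq_iff_mem_normalizer, ← cj_cj]
      exact hcm
    have hy' : y⁻¹ * (c * m) * y ∈ N' := mul_mem (mul_mem (inv_mem hy) hcmN) hy
    obtain ⟨s, hs, c', hc', e⟩ := hScov _ hy'
    have hyN : y ∈ N := hy.1
    have hsN : y * s * y⁻¹ ∈ N := mul_mem (mul_mem hyN (hSN' hs).1) (inv_mem hyN)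
    refine ⟨y * s * y⁻¹, conj_mem_cj.mpr (Subgroup.mem_sup_left hs),
      (y * s * y⁻¹)⁻¹ * c⁻¹ * (y * s * y⁻¹) * (y * c' * y⁻¹), mul_mem ?_
        (centralizer_normal_in_normalizer U hyN hc'), ?_⟩
    · have := centralizer_normal_in_normalizer U (inv_mem hsN) (inv_mem hc)
      simpa using this
    · calc m = c⁻¹ * (y * (y⁻¹ * (c * m) * y) * y⁻¹) := by group
        _ = c⁻¹ * (y * (s * c') * y⁻¹) := by rw [e]
        _ = _ := by group
  -- move `S₂` into `H`
  obtain ⟨a, ha⟩ := hH.2 S₂ hS₂π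
  obtain ⟨k, hk, c, hc, rfl⟩ := ih a ((cj_mono a hRS₂).trans ha)
  have hcU : c ∈ C := Subgroup.centralizer_le hUR hc
  refine fus_of_supplement hcov (hCN hcU) ?_ hn
  intro x hx
  have h1 : k * x * k⁻¹ ∈ H := ha (by rw [← cj_cj]; exact conj_mem_cj.mpr hx)
  have := mul_mem (mul_mem (inv_mem hk) h1) hk
  simpa [mul_assoc] using this

/-- `H` controls the fusion of its `p`-subgroups -/
theorem fusion (hH : Dom π H) (hhom : Hom π G) {p : ℕ} (hp : p.Prime) (hpπ : p ∈ π) :
    ∀ T : Subgroup G, IsPGroup p T → T ≤ H → ∀ g : G, cj g T ≤ H → Fus H T g := by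
  haveI := Fact.mk hp
  intro T
  induction hk : Nat.card H - Nat.card T using Nat.strong_induction_on generalizing T with
  | _ k IH =>
  subst hk
  intro hT hTH g hg
  have IH' : ∀ R : Subgroup G, IsPGroup p R → R ≤ H → Nat.card T < Nat.card R →
      ∀ a : G, cj a R ≤ H → Fus H R a := fun R hR hRH hlt => IH _ (by
    have := Subgroup.card_le_of_le hRH
    omega) R rfl hR hRH
  by_cases hTi : p ∣ T.relIndex H
  · -- `T` is not Sylow in `H`
    have grow : ∀ W : Subgroup G, IsPGroup p W → W ≤ H → Nat.card W = Nat.card T →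
        ∃ d : G, Fus H W d ∧ cj d W ≤ H ∧ ∃ R : Subgroup G, IsPGroup p R ∧ R ≤ H ∧
          cj d W ≤ R ∧ Nat.card T < Nat.card R ∧ R ≤ Subgroup.normalizer (cj d W : Set G) ∧
          ¬ p ∣ R.relIndex (Subgroup.normalizer (cj d W : Set G)) := by
      intro W hW hWH hWc
      -- a Sylow subgroup of `H` above `W`
      obtain ⟨P, hWP⟩ := (hW.comap_subtype (K := H)).exists_le_sylow
      set P' := (P : Subgroup H).map H.subtype with hP'
      have hPp : IsPGroup p P' := P.2.map _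
      have hWP' : W ≤ P' := fun w hw => ⟨⟨w, hWH hw⟩, hWP hw, rfl⟩
      have hne : W < P' := by
        refine lt_of_le_of_ne hWP' fun e => ?_
        have hTP : T.relIndex H = W.relIndex H := by
          have h1 := Subgroup.relIndex_mul_relIndex ⊥ T H bot_le hTH
          have h2 := Subgroup.relIndex_mul_relIndex ⊥ W H bot_le hWH
          simp only [Subgroup.relIndex_bot_left] at h1 h2
          exact mul_left_cancel₀ Nat.card_pos.ne' (h1.trans (hWc ▸ h2).symm)
        rw [hTP, e, hP', Subgroup.relIndex, Subgroup.subgroupOf,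
          Subgroup.comap_map_eq_self_of_injective H.subtype_injective] at hTi
        exact P.not_dvd_index hTi
      have hlt := lt_normalizer_inf hPp hne
      set D := P' ⊓ Subgroup.normalizer (W : Set G) with hD
      have hDp : IsPGroup p D := hPp.to_le inf_le_left
      obtain ⟨S, hS, hSi⟩ := exists_sylow_inf_relIndex hDp (inf_le_right (a := P'))
      set R₁ := (S : Subgroup G) ⊓ Subgroup.normalizer (W : Set G) with hR₁
      have hR₁p : IsPGroup p R₁ := S.2.to_le inf_le_left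
      obtain ⟨d, hd⟩ := hH.2 R₁ (isPi_of_isPGroup hp hpπ hR₁p)
      have hDR : D ≤ R₁ := le_inf hS inf_le_right
      have hWD : W ≤ D := le_inf hWP' Subgroup.le_normalizer
      have hDlt : Nat.card T < Nat.card D := hWc ▸ card_lt_card hlt
      have hfus : Fus H D d := IH' D hDp (inf_le_left.trans (Subgroup.map_subtype_le _)) hDlt d
        ((cj_mono d hDR).trans hd)
      refine ⟨d, hfus.mono hWD, (cj_mono d (hWD.trans hDR)).trans hd, cj d R₁, isPGroup_cj hR₁p d,
        hd, cj_mono d (hWD.trans hDR), ?_, ?_, ?_⟩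
      · rw [card_cj]
        exact lt_of_lt_of_le hDlt (Subgroup.card_le_of_le hDR)
      · rw [← cj_normalizer]
        exact cj_mono d inf_le_right
      · rw [← cj_normalizer, Subgroup.relIndex_map_map_of_injective _ _ (MulEquiv.injective _)]
        exact hSi
    obtain ⟨d₁, hd₁, hU, R₁, hR₁p, hR₁H, hUR₁, hlt₁, hR₁N, hR₁i⟩ := grow T hT hTH rfl
    obtain ⟨d₂, hd₂, hU₂, R₂, hR₂p, hR₂H, hUR₂, hlt₂, hR₂N, hR₂i⟩ :=
      grow (cj g T) (isPGroup_cj hT g) hg (card_cj g T)
    set U := cj d₁ T with hUdef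
    set U₂ := cj d₂ (cj g T) with hU₂def
    set z := d₂ * g * d₁⁻¹ with hzdef
    have hzU : cj z U = U₂ := by
      rw [hUdef, hU₂def, cj_cj, cj_cj, hzdef, inv_mul_cancel_right]
    have hzi : ¬ p ∣ (cj z R₁).relIndex (Subgroup.normalizer (U₂ : Set G)) := by
      rw [← hzU, ← cj_normalizer, Subgroup.relIndex_map_map_of_injective _ _ (MulEquiv.injective _)]
      exact hR₁i
    obtain ⟨y, hy, hyR⟩ := exists_conj_of_relIndex (isPGroup_cj hR₁p z) hR₂p
      (by rw [← hzU, ← cj_normalizer]; exact cj_mono z hR₁N) hR₂N hzi hR₂i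
    rw [cj_cj] at hyR
    have h1 : Fus H U (y * z) := (IH' R₁ hR₁p hR₁H hlt₁ _ (hyR ▸ hR₂H)).mono hUR₁
    have h2 : Fus H (cj (y * z) U) y⁻¹ := by
      rw [← cj_cj, hzU, cj_eq_of_mem hy]
      exact fus_normalizer hH hhom hp hpπ (isPGroup_cj (isPGroup_cj hT g) d₂) hR₂p hUR₂ hR₂H hR₂N
        hR₂i (fun a ha => IH' R₂ hR₂p hR₂H hlt₂ a ha) (inv_mem hy)
    have h3 : Fus H U z := by simpa using h1.comp h2
    have h4 : Fus H (cj (z * d₁) T) d₂⁻¹ := by
      rw [← cj_cj, ← hUdef, hzU]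
      exact hd₂.symm
    have h5 := (hd₁.comp h3).comp h4
    rwa [show d₂⁻¹ * (z * d₁) = g by rw [hzdef]; group] at h5
  · -- `T` is Sylow in `H`
    have hSylow : ∀ a : G, cj a T ≤ H → ∃ k ∈ H, cj k T = cj a T := fun a ha => by
      refine exists_conj_of_relIndex hT (isPGroup_cj hT a) hTH ha hTi ?_
      have h1 := Subgroup.relIndex_mul_relIndex ⊥ T H bot_le hTH
      have h2 := Subgroup.relIndex_mul_relIndex ⊥ (cj a T) H bot_le ha
      simp only [Subgroup.relIndex_bot_left, card_cj] at h1 h2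
      rwa [mul_left_cancel₀ Nat.card_pos.ne' (h2.trans h1.symm)]
    obtain ⟨S, hSN, hSπ, hScov⟩ := exists_cover hhom hp hpπ hT _ le_rfl
    obtain ⟨a, ha⟩ := hH.2 (S ⊔ T) (isPi_sup hSπ (isPi_of_isPGroup hp hpπ hT) hSN)
    obtain ⟨k, hk, hka⟩ := hSylow a ((cj_mono a le_sup_right).trans ha)
    have hb : k⁻¹ * a ∈ Subgroup.normalizer (T : Set G) := by
      rw [← cj_eq_iff_mem_normalizer, ← cj_cj, ← hka, cj_inv_cj]
    have hbS : cj (k⁻¹ * a) S ≤ H := by
      rw [← cj_cj]
      refine (cj_mono _ ((cj_mono a le_sup_left).trans ha)).trans ?_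
      rw [cj_eq_self_of_mem (inv_mem hk)]
    obtain ⟨k', hk', hk'g⟩ := hSylow g hg
    have hn : k'⁻¹ * g ∈ Subgroup.normalizer (T : Set G) := by
      rw [← cj_eq_iff_mem_normalizer, ← cj_cj, ← hk'g, cj_inv_cj]
    obtain ⟨h₁, hh₁, c, hc, e⟩ := fus_of_supplement hScov hb hbS hn
    exact ⟨k' * h₁, mul_mem hk' hh₁, c, hc, by rw [mul_assoc, ← e, mul_inv_cancel_left]⟩

omit [Finite G] in
theorem map_subgroupOf_le (H M : Subgroup G) : (H.subgroupOf M).map M.subtype ≤ H :=
  Subgroup.map_comap_le _ _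

/-- the centralizer of a `p`-element of `H` is dominated by its intersection with `H` -/
theorem dom_centralizer (hH : Dom π H) (hhom : Hom π G) {p : ℕ} (hp : p.Prime) (hpπ : p ∈ π)
    {x : G} (hx : x ∈ H) (hxp : IsPGroup p (Subgroup.zpowers x)) :
    Dom π (H.subgroupOf (Subgroup.centralizer {x})) := by
  set M := Subgroup.centralizer ({x} : Set G) with hM
  refine ⟨fun q hq hd => hH.1 q hq (hd.trans
    (Subgroup.card_comap_dvd_of_injective H M.subtype M.subtype_injective)), fun S hS => ?_⟩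
  set S' := S.map M.subtype with hS'
  have hS'π : IsPi π S' := fun q hq hd => hS q hq
    (by rwa [hS', Subgroup.card_map_of_injective M.subtype_injective] at hd)
  have hnorm : S' ≤ Subgroup.normalizer (Subgroup.zpowers x : Set G) := by
    refine le_trans ?_ (Subgroup.centralizer_le_normalizer _)
    rw [Subgroup.zpowers_eq_closure x, Subgroup.centralizer_closure]
    exact Subgroup.map_subtype_le S
  obtain ⟨a, ha⟩ := hH.2 _ (isPi_sup hS'π (isPi_of_isPGroup hp hpπ hxp) hnorm)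
  obtain ⟨k, hk, c, hc, rfl⟩ := fusion hH hhom hp hpπ _ hxp
    (Subgroup.zpowers_le.mpr hx) a ((cj_mono a le_sup_right).trans ha)
  have hcM : c ∈ M := Subgroup.centralizer_le
    (Set.singleton_subset_iff.mpr (Subgroup.mem_zpowers x)) hc
  refine ⟨⟨c, hcM⟩, ?_⟩
  rintro _ ⟨w, hw, rfl⟩
  refine Subgroup.mem_subgroupOf.mpr ?_
  show c * (w : G) * c⁻¹ ∈ H
  have h1 : (k * c) * (w : G) * (k * c)⁻¹ ∈ H :=
    ha (conj_mem_cj.mpr (Subgroup.mem_sup_left ⟨w, hw, rfl⟩))
  have := mul_mem (mul_mem (inv_mem hk) h1) hk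
  simpa [mul_assoc] using this

omit [Finite G] in
theorem exists_pPower_not_central {x : G} (hx : x ∉ Subgroup.center G) (hfin : IsOfFinOrder x) :
    ∃ p : ℕ, p.Prime ∧ p ∣ orderOf x ∧ ∃ k : ℕ, (∃ j, orderOf (x ^ k) = p ^ j) ∧
      x ^ k ∉ Subgroup.center G := by
  have hne : orderOf (QuotientGroup.mk' (Subgroup.center G) x) ≠ 1 := fun e =>
    hx ((QuotientGroup.eq_one_iff x).mp (orderOf_eq_one_iff.mp e))
  obtain ⟨p, hp, hd⟩ := Nat.exists_prime_and_dvd hne
  have hn : orderOf x ≠ 0 := hfin.orderOf_pos.ne'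
  refine ⟨p, hp, hd.trans (orderOf_map_dvd _ x), ordCompl[p] (orderOf x),
    ⟨(orderOf x).factorization p, ?_⟩, fun h => ?_⟩
  · rw [orderOf_pow_of_dvd (Nat.ordCompl_pos p hn).ne' (Nat.ordCompl_dvd _ _),
      Nat.div_div_self (Nat.ordProj_dvd _ _) hn]
  · have h1 : (QuotientGroup.mk' (Subgroup.center G) x) ^ (ordCompl[p] (orderOf x)) = 1 := by
      rw [← map_pow]
      exact (QuotientGroup.eq_one_iff _).mpr h
    exact Nat.not_dvd_ordCompl hp hn (hd.trans (orderOf_dvd_of_pow_eq_one h1))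

omit [Finite G] in
/-- elements of `H` conjugate in `G` are conjugate in `H` -/
theorem elem_fusion_aux (n : ℕ) : ∀ (G : Type u) [Group G] [Finite G] (π : Set ℕ) (H : Subgroup G),
    Nat.card G = n → Dom π H → Hom π G → ∀ x ∈ H, ∀ (g : G), g * x * g⁻¹ ∈ H →
      ∃ h ∈ H, h * x * h⁻¹ = g * x * g⁻¹ := by
  induction n using Nat.strong_induction_on with
  | _ n ih =>
    intro G _ _ π H hn hH hhom x hx g hg
    by_cases hxc : x ∈ Subgroup.center G
    · refine ⟨1, one_mem H, ?_⟩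
      rw [Subgroup.mem_center_iff.mp hxc g]
      simp
    obtain ⟨p, hp, hpd, k, ⟨j, hj⟩, hxk⟩ := exists_pPower_not_central hxc (isOfFinOrder_of_finite x)
    have hpπ : p ∈ π := hH.1 p hp (hpd.trans (Subgroup.orderOf_mk x hx ▸ orderOf_dvd_natCard _))
    set x₁ := x ^ k with hx₁
    have hx₁p : IsPGroup p (Subgroup.zpowers x₁) :=
      IsPGroup.of_card (n := j) (by rw [Nat.card_zpowers, hj])
    obtain ⟨h, hh, c, hc, rfl⟩ := fusion hH hhom hp hpπ _ hx₁p
      (Subgroup.zpowers_le.mpr (pow_mem hx k)) g (by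
        rw [cj, MonoidHom.map_zpowers, Subgroup.zpowers_le]
        show g * x ^ k * g⁻¹ ∈ H
        rw [← conj_pow]
        exact pow_mem hg k)
    set M := Subgroup.centralizer ({x₁} : Set G) with hM
    have hcM : c ∈ M := Subgroup.centralizer_le
      (Set.singleton_subset_iff.mpr (Subgroup.mem_zpowers x₁)) hc
    have hxM : x ∈ M := by
      rw [hM, Subgroup.mem_centralizer_singleton_iff, hx₁]
      exact ((Commute.refl x).pow_right k).eq
    have hlt : Nat.card M < n := by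
      rw [← hn]
      refine lt_of_le_of_ne (Subgroup.card_le_card_group M) fun e => hxk ?_
      rw [Subgroup.mem_center_iff]
      intro y
      have hy : y ∈ M := (Subgroup.card_eq_iff_eq_top M).mp e ▸ Subgroup.mem_top y
      exact Subgroup.mem_centralizer_singleton_iff.mp hy
    have hcx : c * x * c⁻¹ ∈ H := by
      have := mul_mem (mul_mem (inv_mem hh) hg) hh
      simpa [mul_assoc] using this
    obtain ⟨⟨h', hh'M⟩, hh', he⟩ := ih _ hlt M π (H.subgroupOf M) rfl
      (dom_centralizer hH hhom hp hpπ (pow_mem hx k) hx₁p) (hhom.subgroup M) ⟨x, hxM⟩ hx ⟨c, hcM⟩ hcx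
    have he' : h' * x * h'⁻¹ = c * x * c⁻¹ := congrArg Subtype.val he
    exact ⟨h * h', mul_mem hh hh', by
      calc h * h' * x * (h * h')⁻¹ = h * (h' * x * h'⁻¹) * h⁻¹ := by group
        _ = h * (c * x * c⁻¹) * h⁻¹ := by rw [he']
        _ = h * c * x * (h * c)⁻¹ := by group⟩

/-- elements of `H` conjugate in `G` are conjugate in `H` -/
theorem elem_fusion (hH : Dom π H) (hhom : Hom π G) {x y : G} (hx : x ∈ H) (hy : y ∈ H)
    (h : IsConj x y) : ∃ k ∈ H, k * x * k⁻¹ = y := by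
  obtain ⟨g, rfl⟩ := isConj_iff.mp h
  exact elem_fusion_aux _ G π H rfl hH hhom x hx g hy

end Cfsg.Agent.PiHom
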